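import Mathlib
import Cfsg.Agent.H238.SolCent
import Cfsg.Agent.ClassicalGeometry.AutPSL.SylowU
import Cfsg.Agent.S0144
import Cfsg.Agent.H208.QuadBase

/-!
# Solvable centralisers of the root elements of `PSL₃(q)`, `PSL₄(2)`, `PSL₄(3)` (helper605)

* `sc_l3` : `SC p (PSL₃(F))` for every finite field `F` of characteristic `p`;
* `sc_l4` : `SC p (PSL₄(F))` for `|F| = 2, 3`.
-/

set_option autoImplicit false

namespace Cfsg.Agent.H605.Sol

open Matrix Subgroup
open Cfsg.Agent.ClassicalGeometry.AutPSL.Root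
open Cfsg.Agent.ClassicalGeometry.AutPSL.SylowU
open Cfsg.Agent.H238.SolCent

variable {F : Type*} [Field F] {m : ℕ}

/-- the first column and the last row vanish outside the diagonal, as a submonoid -/
def ParM (m : ℕ) (F : Type*) [Field F] : Submonoid (Matrix.SpecialLinearGroup (Fin (m + 2)) F) where
  carrier := {g | (∀ i : Fin (m + 2), i ≠ 0 → g.1 i 0 = 0) ∧ ∀ j : Fin (m + 2), j ≠ Fin.last (m + 1) →
    g.1 (Fin.last (m + 1)) j = 0}
  mul_mem' {g h} hg hh := by
    constructor
    · intro i hi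
      show (g.1 * h.1) i 0 = 0
      rw [Matrix.mul_apply]
      refine Finset.sum_eq_zero fun k _ => ?_
      by_cases hk : k = 0
      · rw [hk, hg.1 i hi, zero_mul]
      · rw [hh.1 k hk, mul_zero]
    · intro j hj
      show (g.1 * h.1) (Fin.last (m + 1)) j = 0
      rw [Matrix.mul_apply]
      refine Finset.sum_eq_zero fun k _ => ?_
      by_cases hk : k = Fin.last (m + 1)
      · rw [hk, hh.2 j hj, mul_zero]
      · rw [hg.2 k hk, zero_mul]
  one_mem' := by
    constructor
    · intro i hi
      show (1 : Matrix (Fin (m + 2)) (Fin (m + 2)) F) i 0 = 0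
      rw [one_apply, if_neg hi]
    · intro j hj
      show (1 : Matrix (Fin (m + 2)) (Fin (m + 2)) F) (Fin.last (m + 1)) j = 0
      rw [one_apply, if_neg hj.symm]

/-- the first column and the last row vanish outside the diagonal -/
def Par (m : ℕ) (F : Type*) [Field F] [Finite F] : Subgroup (Matrix.SpecialLinearGroup (Fin (m + 2)) F) :=
  { ParM m F with
    inv_mem' := by
      intro g hg
      have h1 : g⁻¹ = g ^ (orderOf g - 1) := by
        rw [inv_eq_iff_mul_eq_one, ← pow_succ', Nat.sub_add_cancel (orderOf_pos g), pow_orderOf_eq_one]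
      change g⁻¹ ∈ ParM m F
      rw [h1]
      exact Submonoid.pow_mem _ hg _ }

variable [Finite F]

theorem mem_Par {g : Matrix.SpecialLinearGroup (Fin (m + 2)) F} : g ∈ Par m F ↔
    (∀ i : Fin (m + 2), i ≠ 0 → g.1 i 0 = 0) ∧ ∀ j : Fin (m + 2), j ≠ Fin.last (m + 1) →
      g.1 (Fin.last (m + 1)) j = 0 := Iff.rfl

/-- the middle indices -/
def mid (m : ℕ) (i : Fin m) : Fin (m + 2) := i.succ.castSucc

theorem mid_ne_zero (i : Fin m) : mid m i ≠ 0 := by
  intro h
  have := congrArg Fin.val h
  simp [mid] at this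

theorem mid_ne_last (i : Fin m) : mid m i ≠ Fin.last (m + 1) := by
  intro h
  have := congrArg Fin.val h
  simp [mid] at this
  have := i.2
  omega

theorem sum_mid {M : Type*} [AddCommMonoid M] (f : Fin (m + 2) → M) :
    ∑ i, f i = f 0 + ∑ i : Fin m, f (mid m i) + f (Fin.last (m + 1)) := by
  rw [Fin.sum_univ_castSucc, Fin.sum_univ_succ]
  rfl

/-- the middle block -/
def blk (m : ℕ) (F : Type*) [Field F] [Finite F] : ↥(Par m F) →* Matrix (Fin m) (Fin m) F where
  toFun g := Matrix.of fun i j => g.1.1 (mid m i) (mid m j)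
  map_one' := by
    ext i j
    show (1 : Matrix (Fin (m + 2)) (Fin (m + 2)) F) (mid m i) (mid m j) = _
    rw [one_apply, one_apply]
    have h : mid m i = mid m j ↔ i = j := by
      constructor
      · intro h
        have := congrArg Fin.val h
        simp [mid] at this
        exact Fin.ext this
      · rintro rfl; rfl
    simp only [h]
  map_mul' g h := by
    ext i j
    rw [Matrix.mul_apply]
    show (g.1.1 * h.1.1) (mid m i) (mid m j) = ∑ k, g.1.1 (mid m i) (mid m k) * h.1.1 (mid m k) (mid m j)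
    rw [Matrix.mul_apply, sum_mid, g.2.1 _ (mid_ne_zero i), h.2.2 _ (mid_ne_last j)]
    simp

/-- the first diagonal entry -/
def dg (m : ℕ) (F : Type*) [Field F] [Finite F] : ↥(Par m F) →* F where
  toFun g := g.1.1 0 0
  map_one' := by
    show (1 : Matrix (Fin (m + 2)) (Fin (m + 2)) F) 0 0 = 1
    rw [one_apply, if_pos rfl]
  map_mul' g h := by
    show (g.1.1 * h.1.1) 0 0 = _
    rw [Matrix.mul_apply, Finset.sum_eq_single 0]
    · intro k _ hk
      rw [h.2.1 k hk, mul_zero]
    · intro hk; exact absurd (Finset.mem_univ _) hk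

/-- the last diagonal entry -/
def dl (m : ℕ) (F : Type*) [Field F] [Finite F] : ↥(Par m F) →* F where
  toFun g := g.1.1 (Fin.last (m + 1)) (Fin.last (m + 1))
  map_one' := by
    show (1 : Matrix (Fin (m + 2)) (Fin (m + 2)) F) _ _ = 1
    rw [one_apply, if_pos rfl]
  map_mul' g h := by
    show (g.1.1 * h.1.1) _ _ = _
    rw [Matrix.mul_apply, Finset.sum_eq_single (Fin.last (m + 1))]
    · intro k _ hk
      rw [g.2.2 k hk, zero_mul]
    · intro hk; exact absurd (Finset.mem_univ _) hk

/-- an index is the first, a middle one or the last -/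
theorem idx (i : Fin (m + 2)) : i = 0 ∨ (∃ k, i = mid m k) ∨ i = Fin.last (m + 1) := by
  rcases Fin.eq_castSucc_or_eq_last i with ⟨j, rfl⟩ | h
  · rcases Fin.eq_zero_or_eq_succ j with rfl | ⟨k, rfl⟩
    · exact Or.inl rfl
    · exact Or.inr (Or.inl ⟨k, rfl⟩)
  · exact Or.inr (Or.inr h)

/-- **the parabolic subgroup is solvable if the general linear group of the middle block is** -/
theorem solvable_Par {p : ℕ} [Fact p.Prime] [CharP F p] (hG : Group.IsSolvable (GL (Fin m) F)) :
    Group.IsSolvable ↥(Par m F) := by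
  let f : ↥(Par m F) →* (GL (Fin m) F) × (Fˣ × Fˣ) :=
    (blk m F).toHomUnits.prod ((dg m F).toHomUnits.prod (dl m F).toHomUnits)
  have hU : Group.IsSolvable ↥(upper (m + 2) F) := by
    have := Fintype.ofFinite F
    obtain ⟨k, -, hk⟩ := FiniteField.card F p
    have h1 : IsPGroup p ↥(upper (m + 2) F) := by
      refine IsPGroup.of_card (n := k * ((m + 2) * (m + 2 - 1) / 2)) ?_
      rw [card_upper, hk, ← pow_mul]
    have h2 := h1.isNilpotent
    infer_instance
  let e : ↥((upper (m + 2) F).subgroupOf (Par m F)) →* ↥(upper (m + 2) F) :=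
    { toFun := fun x => ⟨x.1.1, x.2⟩
      map_one' := rfl
      map_mul' := fun _ _ => rfl }
  have hU' : Group.IsSolvable ↥((upper (m + 2) F).subgroupOf (Par m F)) :=
    Group.isSolvable_of_isSolvable_injective (f := e) (fun x y hxy => by
      have h1 : x.1.1 = y.1.1 := congrArg (fun z : ↥(upper (m + 2) F) => z.1) hxy
      exact Subtype.ext (Subtype.ext h1))
  refine Group.isSolvable_of_ker_le_range ((upper (m + 2) F).subgroupOf (Par m F)).subtype f ?_
  intro g hg
  rw [MonoidHom.mem_ker] at hg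
  have h1 : blk m F g = 1 := congrArg (fun x : (GL (Fin m) F) × (Fˣ × Fˣ) => (x.1 : Matrix (Fin m) (Fin m) F)) hg
  have h2 : g.1.1 0 0 = 1 := congrArg (fun x : (GL (Fin m) F) × (Fˣ × Fˣ) => (x.2.1 : F)) hg
  have h3 : g.1.1 (Fin.last (m + 1)) (Fin.last (m + 1)) = 1 :=
    congrArg (fun x : (GL (Fin m) F) × (Fˣ × Fˣ) => (x.2.2 : F)) hg
  rw [Subgroup.range_subtype, Subgroup.mem_subgroupOf, mem_upper]
  intro i j hij
  rcases idx i with rfl | ⟨k, rfl⟩ | rfl
  · have hj : j = 0 := le_antisymm hij (Fin.zero_le j)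
    rw [hj, if_pos rfl, h2]
  · rcases idx j with rfl | ⟨l, rfl⟩ | rfl
    · rw [if_neg (mid_ne_zero k)]
      exact g.2.1 _ (mid_ne_zero k)
    · have h4 := congrFun (congrFun h1 k) l
      rw [one_apply] at h4
      have h5 : g.1.1 (mid m k) (mid m l) = if k = l then 1 else 0 := h4
      show g.1.1 (mid m k) (mid m l) = _
      rw [h5]
      by_cases hkl : k = l
      · rw [if_pos hkl, if_pos (by rw [hkl])]
      · rw [if_neg hkl, if_neg]
        intro h
        apply hkl
        have := congrArg Fin.val h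
        simp [mid] at this
        exact Fin.ext this
    · exfalso
      exact mid_ne_last k (le_antisymm (Fin.le_last _) hij)
  · by_cases hj : j = Fin.last (m + 1)
    · rw [hj, if_pos rfl, h3]
    · rw [if_neg (fun h => hj h.symm)]
      exact g.2.2 j hj

/-- an element commuting modulo scalars with the root element lies in the parabolic subgroup -/
theorem mem_Par_of_commute (hm : 1 ≤ m) {c : F} (hc : c ≠ 0) {g : Matrix.SpecialLinearGroup (Fin (m + 2)) F}
    (h0 : (0 : Fin (m + 2)) < Fin.last (m + 1))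
    (h : pr g * pr (Matrix.SpecialLinearGroup.transvection h0.ne c) =
      pr (Matrix.SpecialLinearGroup.transvection h0.ne c) * pr g) : g ∈ Par m F := by
  set t := Matrix.SpecialLinearGroup.transvection h0.ne c with ht
  rw [← map_mul, ← map_mul] at h
  obtain ⟨d, hd⟩ := exists_smul_of_pr_eq h
  have ht' : (t : Matrix (Fin (m + 2)) (Fin (m + 2)) F) = 1 + single 0 (Fin.last (m + 1)) c := rfl
  rw [Matrix.SpecialLinearGroup.coe_mul, Matrix.SpecialLinearGroup.coe_mul] at hd
  -- the scalar is one
  have hfix : ∀ x : Fin (m + 2) → F, x (Fin.last (m + 1)) = 0 → t.1 *ᵥ x = x := by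
    intro x hx
    rw [ht', add_mulVec, one_mulVec]
    have : (single 0 (Fin.last (m + 1)) c : Matrix (Fin (m + 2)) (Fin (m + 2)) F) *ᵥ x = 0 := by
      funext i
      rw [Matrix.mulVec, dotProduct, Finset.sum_eq_single (Fin.last (m + 1))]
      · rw [hx, mul_zero]; rfl
      · intro j _ hj
        rw [single_apply, if_neg (by rintro ⟨-, h⟩; exact hj h.symm), zero_mul]
      · intro hj; exact absurd (Finset.mem_univ _) hj
    rw [this, add_zero]
  obtain ⟨x, hx0, hx1, hx2⟩ := exists_common_zero (F := F) (ι := Fin (m + 2)) (by rw [Fintype.card_fin]; omega)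
    (Pi.single (Fin.last (m + 1)) 1) (Pi.single (Fin.last (m + 1)) 1 ᵥ* g.1)
  rw [single_dotProduct, one_mul] at hx1
  rw [← dotProduct_mulVec, single_dotProduct, one_mul] at hx2
  have h1 : g.1 *ᵥ x = d • (g.1 *ᵥ x) := by
    have h2 := congrArg (fun A : Matrix (Fin (m + 2)) (Fin (m + 2)) F => A *ᵥ x) hd
    simp only [smul_mulVec, ← mulVec_mulVec] at h2
    rw [hfix x hx1, hfix _ hx2] at h2
    exact h2
  have h2 : g.1 *ᵥ x ≠ 0 := by
    intro h3
    apply hx0
    have h4 : (g⁻¹ * g : Matrix.SpecialLinearGroup (Fin (m + 2)) F).1 *ᵥ x = 0 := by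
      rw [Matrix.SpecialLinearGroup.coe_mul, ← mulVec_mulVec, h3, mulVec_zero]
    rw [inv_mul_cancel, Matrix.SpecialLinearGroup.coe_one, one_mulVec] at h4
    exact h4
  have hd1 : d = 1 := by
    by_contra hne
    apply h2
    have h3 : (1 - d) • (g.1 *ᵥ x) = 0 := by
      rw [sub_smul, one_smul, ← h1, sub_self]
    exact (smul_eq_zero.1 h3).resolve_left (sub_ne_zero.2 (Ne.symm hne))
  rw [hd1, one_smul, ht', add_mul, mul_add, one_mul, mul_one] at hd
  have hd' := add_left_cancel hd
  constructor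
  · intro i hi
    have h3 := congrFun (congrFun hd' i) (Fin.last (m + 1))
    rw [single_mul_apply_of_ne (h := hi), mul_single_apply_same] at h3
    exact (mul_eq_zero.1 h3.symm).resolve_right hc
  · intro j hj
    have h3 := congrFun (congrFun hd' 0) j
    rw [single_mul_apply_same, mul_single_apply_of_ne (hbj := hj)] at h3
    exact (mul_eq_zero.1 h3).resolve_left hc

/-- **Solvable centralisers of the root elements.** -/
theorem sc_of {F : Type*} [Field F] [Fintype F] {p : ℕ} [Fact p.Prime] [CharP F p] {m : ℕ} (hm : 1 ≤ m)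
    (hG : Group.IsSolvable (GL (Fin m) F)) : SC p (Matrix.ProjectiveSpecialLinearGroup (Fin (m + 2)) F) := by
  obtain ⟨S, hS⟩ := exists_sylow (F := F) (m + 2) p
  refine SC.of_one S ?_
  intro z hz hc
  have hz1 : z ≠ 1 := by
    rintro rfl
    rw [orderOf_one] at hz
    exact (Fact.out : p.Prime).one_lt.ne hz
  have hzS : z ∈ S := by
    refine Cfsg.Agent.H208.QuadBase.mem_sylow S ?_ hc
    rw [← hz, pow_orderOf_eq_one]
  have hz' : z ∈ (upper (m + 2) F).map pr := by
    rw [← hS]; exact hzS
  obtain ⟨y, hyU, rfl⟩ := hz'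
  have h0 : (0 : Fin (m + 2)) < Fin.last (m + 1) := Fin.last_pos
  obtain ⟨c, rfl⟩ := eq_transvection_of_commute h0 (fun i => Fin.zero_le i) (fun i => Fin.le_last i) hyU (by
    intro u hu
    exact (hc (pr u) (by
      change pr u ∈ (S : Subgroup _)
      rw [hS]
      exact ⟨u, hu, rfl⟩)).symm)
  have hc0 : c ≠ 0 := by
    rintro rfl
    apply hz1
    have : Matrix.SpecialLinearGroup.transvection h0.ne (0 : F) = 1 := by
      apply Subtype.ext
      show (1 : Matrix (Fin (m + 2)) (Fin (m + 2)) F) + single _ _ 0 = 1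
      rw [Matrix.single_zero, add_zero]
    rw [this, map_one]
  have hsol := solvable_Par (F := F) (m := m) (p := p) hG
  have hle : centralizer ({pr (Matrix.SpecialLinearGroup.transvection h0.ne c)} :
      Set (Matrix.ProjectiveSpecialLinearGroup (Fin (m + 2)) F)) ≤ (Par m F).map pr := by
    intro x hx
    rw [mem_centralizer_singleton_iff] at hx
    obtain ⟨g, rfl⟩ := pr_surjective x
    exact ⟨g, mem_Par_of_commute hm hc0 h0 hx, rfl⟩
  have h1 : Group.IsSolvable ↥((Par m F).map (pr : _ →* Matrix.ProjectiveSpecialLinearGroup (Fin (m + 2)) F)) :=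
    Group.isSolvable_of_surjective (f := pr.subgroupMap (Par m F)) (pr.subgroupMap_surjective _)
  exact Group.isSolvable_of_isSolvable_injective (f := Subgroup.inclusion hle) (Subgroup.inclusion_injective hle)

/-- `PSL₃(q)` -/
theorem sc_l3 {F : Type} [Field F] [Fintype F] {p : ℕ} [Fact p.Prime] [CharP F p] :
    SC p (Matrix.ProjectiveSpecialLinearGroup (Fin 3) F) := by
  refine sc_of (m := 1) le_rfl ?_
  refine Group.isSolvable_of_comm fun a b => Units.ext ?_
  ext i j
  rw [Units.val_mul, Units.val_mul, Matrix.mul_apply, Matrix.mul_apply, Fin.sum_univ_one, Fin.sum_univ_one]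
  have hi := Subsingleton.elim i 0
  have hj := Subsingleton.elim j 0
  subst hi hj
  rw [mul_comm]

/-- `PSL₄(2)`, `PSL₄(3)` -/
theorem sc_l4 {F : Type} [Field F] [Fintype F] {p : ℕ} [Fact p.Prime] [CharP F p]
    (hF : Fintype.card F = 2 ∨ Fintype.card F = 3) : SC p (Matrix.ProjectiveSpecialLinearGroup (Fin 4) F) := by
  refine sc_of (m := 2) (by norm_num) ?_
  have h1 : Nat.card (GL (Fin 2) F) = ∏ i : Fin 2, (Fintype.card F ^ 2 - Fintype.card F ^ (i : ℕ)) :=
    Matrix.card_GL_field 2
  rcases hF with hF | hF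
  · rw [hF] at h1
    exact S0144.result 2 3 1 1 Nat.prime_two Nat.prime_three (by rw [h1, Fin.prod_univ_two]; norm_num)
  · rw [hF] at h1
    exact S0144.result 2 3 4 1 Nat.prime_two Nat.prime_three (by rw [h1, Fin.prod_univ_two]; norm_num)

end Cfsg.Agent.H605.Sol
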